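import Groth.Agent.S2038
import Groth.Agent.S2039
import Groth.Agent.CalgA.CohenRing
import Groth.Agent.Etdl.H428.RegPar2
import Mathlib.RingTheory.Flat.TorsionFree
import Mathlib.RingTheory.DiscreteValuationRing.Basic
import Mathlib.RingTheory.LocalRing.ResidueField.Fiber
import Mathlib.FieldTheory.Perfect

/-!
# An unramified extension of complete discrete valuation rings with finite residue field below is regular
-/

set_option autoImplicit false
universe u

open IsLocalRing
open scoped TensorProduct

namespace Groth.Agent.Sga7.H330.CohenReg

/-- A quotient ring of a field is regular. -/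
theorem isRegularRing_of_surjective {k B : Type u} [Field k] [CommRing B] (f : k →+* B)
    (hf : Function.Surjective f) : IsRegularRing B := by
  rcases subsingleton_or_nontrivial B with h | h
  · exact Groth.Agent.Etdl.H428.RegPar.isRegularRing_of_subsingleton B
  · exact IsRegularRing.of_ringEquiv (RingEquiv.ofBijective f ⟨f.injective, hf⟩)

theorem isRegularHom {W Λ : Type u} [CommRing W] [IsDomain W] [IsDiscreteValuationRing W] [CommRing Λ]
    [IsDomain Λ] [IsDiscreteValuationRing Λ] [IsAdicComplete (maximalIdeal W) W]
    [IsAdicComplete (maximalIdeal Λ) Λ] [Algebra W Λ] [IsLocalHom (algebraMap W Λ)]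
    [Finite (ResidueField W)] (hinj : Function.Injective (algebraMap W Λ))
    (hmax : (maximalIdeal W).map (algebraMap W Λ) = maximalIdeal Λ) : CAlg.IsRegularHom W Λ := by
  rw [Groth.Agent.S2039.result, ← Groth.Agent.S2038.result]
  constructor
  · rw [Module.Flat.flat_iff_torsion_eq_bot_of_isBezout]
    rw [eq_bot_iff]
    intro x hx
    rw [Submodule.mem_torsion_iff] at hx
    obtain ⟨a, ha⟩ := hx
    have ha' : (a : W) • x = 0 := ha
    rw [Algebra.smul_def] at ha'
    rcases mul_eq_zero.1 ha' with h | h
    · exact absurd (hinj (h.trans (map_zero _).symm)) (nonZeroDivisors.ne_zero a.2)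
    · exact h
  · have hbij := Ideal.bijective_algebraMap_quotient_residueField (maximalIdeal W)
    have hfin : Finite (maximalIdeal W).ResidueField := by
      have : Finite (W ⧸ maximalIdeal W) := inferInstanceAs (Finite (ResidueField W))
      exact Finite.of_surjective _ hbij.2
    have hreg : IsRegularRing ((maximalIdeal W).Fiber Λ) := by
      let i : Λ →+* (maximalIdeal W).Fiber Λ := Algebra.TensorProduct.includeRight.toRingHom
      have hi : ∀ x : Λ, i x = 1 ⊗ₜ[W] x := fun x => rfl
      have hsurj : Function.Surjective i := by
        intro z
        induction z using TensorProduct.induction_on with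
        | zero => exact ⟨0, map_zero _⟩
        | tmul a b =>
          obtain ⟨a, rfl⟩ := hbij.2 a
          obtain ⟨a, rfl⟩ := Ideal.Quotient.mk_surjective a
          refine ⟨algebraMap W Λ a * b, ?_⟩
          rw [hi, ← Algebra.smul_def, ← TensorProduct.smul_tmul]
          congr 1
          rw [Algebra.smul_def, mul_one]
          rfl
        | add x y hx hy =>
          obtain ⟨x, rfl⟩ := hx
          obtain ⟨y, rfl⟩ := hy
          exact ⟨x + y, map_add _ _ _⟩
      have hker : ∀ x ∈ maximalIdeal Λ, i x = 0 := by
        intro x hx
        rw [← hmax] at hx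
        refine Submodule.span_induction ?_ (map_zero _) ?_ ?_ hx
        · rintro _ ⟨a, ha, rfl⟩
          rw [hi, ← mul_one (algebraMap W Λ a), ← Algebra.smul_def, ← TensorProduct.smul_tmul]
          have h1 : (a • (1 : (maximalIdeal W).ResidueField)) = 0 := by
            rw [Algebra.smul_def, mul_one, Ideal.algebraMap_residueField_eq_zero]
            exact ha
          rw [h1, TensorProduct.zero_tmul]
        · intro a b _ _ ha hb
          rw [map_add, ha, hb, add_zero]
        · intro a b _ hb
          rw [smul_eq_mul, map_mul, hb, mul_zero]
      exact isRegularRing_of_surjective (k := ResidueField Λ) (Ideal.Quotient.lift _ i hker)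
        (Ideal.Quotient.lift_surjective_of_surjective _ hker hsurj)
    exact Groth.Agent.Etdl.H428.RegPar.isGeometricallyRegular_of_perfectField _ _

end Groth.Agent.Sga7.H330.CohenReg
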