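import Groth.Agent.Sga7.H330.Assemble
import Groth.Agent.S0595
import Mathlib.RingTheory.TensorProduct.Quotient
import Mathlib.RingTheory.Smooth.Flat
import Mathlib.RingTheory.Flat.TorsionFree

/-!
# Approximation from a regular homomorphism `F[T] → R'`
-/

set_option autoImplicit false
universe u

open IsLocalRing
open scoped TensorProduct Polynomial

namespace Groth.Agent.Sga7.H330.EqChar

/-- Smooth over `V`: modulo `ϖ` with `V/ϖ` a field the ring is regular. -/
theorem isRegularRing_quotient {V A : Type u} [CommRing V]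
    [CommRing A] [Algebra V A] [Algebra.Smooth V A] (ϖ : V) (hmax : (Ideal.span {ϖ}).IsMaximal) :
    IsRegularRing (A ⧸ Ideal.span {algebraMap V A ϖ}) := by
  let _ : Field (V ⧸ Ideal.span {ϖ}) := Ideal.Quotient.field _
  have h2 : IsRegularRing (A ⊗[V] (V ⧸ Ideal.span {ϖ})) := by
    have : Algebra.Smooth (V ⧸ Ideal.span {ϖ}) ((V ⧸ Ideal.span {ϖ}) ⊗[V] A) := inferInstance
    have h3 : IsRegularRing ((V ⧸ Ideal.span {ϖ}) ⊗[V] A) :=
      Groth.Agent.Ega4A.RegEtale.isRegularRing_of_smooth (V ⧸ Ideal.span {ϖ}) _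
    exact IsRegularRing.of_ringEquiv (Algebra.TensorProduct.comm V _ _).toRingEquiv
  have h4 : IsRegularRing (A ⧸ (Ideal.span {ϖ}).map (algebraMap V A)) := IsRegularRing.of_ringEquiv
    (Algebra.TensorProduct.quotIdealMapEquivTensorQuot A (Ideal.span {ϖ})).symm.toRingEquiv
  rwa [Ideal.map_span, Set.image_singleton] at h4

/-- Flat algebras: nonzerodivisors stay nonzerodivisors. -/
theorem mem_nonZeroDivisors {V A : Type u} [CommRing V] [CommRing A] [Algebra V A] [Module.Flat V A]
    {x : V} (hx : x ∈ nonZeroDivisors V) : algebraMap V A x ∈ nonZeroDivisors A := by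
  have h1 : IsSMulRegular A x := Module.Flat.isSMulRegular_of_nonZeroDivisors hx
  rw [mem_nonZeroDivisors_iff_right]
  intro z hz
  apply h1
  simp only [smul_zero]
  rw [Algebra.smul_def, mul_comm]
  exact hz

/-- Popescu for the subalgebra generated by a finite set. -/
theorem exists_smooth {V Λ : Type u} [CommRing V] [IsNoetherianRing V] [CommRing Λ] [IsNoetherianRing Λ]
    [Algebra V Λ] (hreg : CAlg.IsRegularHom V Λ) (S : Finset Λ) :
    ∃ (D : Type u) (_ : CommRing D) (_ : Algebra V D), Algebra.Smooth V D ∧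
      ∃ (g : Algebra.adjoin V (S : Set Λ) →ₐ[V] D) (h : D →ₐ[V] Λ), ∀ x, h (g x) = x := by
  have h1 : Algebra.FiniteType V (Algebra.adjoin V (S : Set Λ)) :=
    Subalgebra.fg_iff_finiteType _ |>.1 ⟨S, rfl⟩
  have h2 : Algebra.FinitePresentation V (Algebra.adjoin V (S : Set Λ)) :=
    Algebra.FinitePresentation.of_finiteType.1 h1
  obtain ⟨D, _, _, hD, g, h, hgh⟩ := Groth.Agent.S0595.result V Λ hreg (Algebra.adjoin V (S : Set Λ))
    (Algebra.adjoin V (S : Set Λ)).val
  exact ⟨D, inferInstance, inferInstance, hD, g, h, fun x => DFunLike.congr_fun hgh x⟩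

theorem adjoin_int_le {V Λ : Type u} [CommRing V] [CommRing Λ] [Algebra V Λ] (S : Set Λ) :
    Algebra.adjoin ℤ S ≤ (Algebra.adjoin V S).restrictScalars ℤ :=
  Algebra.adjoin_le Algebra.subset_adjoin

theorem exists_finiteType {F V D : Type u} [Field F] [CommRing V] [CommRing D] [Algebra F V]
    [Algebra.FiniteType F V] [Algebra V D] [Algebra.FiniteType V D] (I : Ideal D) :
    ∃ _ : Algebra F (D ⧸ I), Algebra.FiniteType F (D ⧸ I) := by
  let _ : Algebra F (D ⧸ I) := ((algebraMap V (D ⧸ I)).comp (algebraMap F V)).toAlgebra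
  have : IsScalarTower F V (D ⧸ I) := .of_algebraMap_eq' rfl
  have hft1 : Algebra.FiniteType V (D ⧸ I) := Algebra.FiniteType.trans (S := D) inferInstance inferInstance
  exact ⟨inferInstance, Algebra.FiniteType.trans (S := V) inferInstance hft1⟩

/-- Ring homomorphism from the subring generated by `S`. -/
theorem exists_hom {V Λ D : Type u} [CommRing V] [CommRing Λ] [Algebra V Λ] [CommRing D] [Algebra V D]
    (S : Set Λ) (g : Algebra.adjoin V S →ₐ[V] D) (h : D →ₐ[V] Λ) (hgh : ∀ x, h (g x) = x) (v : V)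
    (hv : algebraMap V Λ v ∈ S) :
    ∃ s : Algebra.adjoin ℤ S →+* D, s ⟨algebraMap V Λ v, Algebra.subset_adjoin hv⟩ = algebraMap V D v ∧
      ∀ x, (h : D →+* Λ) (s x) = x := by
  have key : ∀ x : Algebra.adjoin ℤ S, (x : Λ) ∈ Algebra.adjoin V S := fun x => adjoin_int_le S x.2
  let s : Algebra.adjoin ℤ S →+* D := (g : Algebra.adjoin V S →+* D).comp
    ((Algebra.adjoin ℤ S).toSubring.subtype.codRestrict (Algebra.adjoin V S).toSubring (fun x => key x))
  have hs : ∀ x, s x = g ⟨x, key x⟩ := fun x => rfl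
  refine ⟨s, ?_, fun x => ?_⟩
  · rw [hs]
    have h1 : (⟨algebraMap V Λ v, key ⟨algebraMap V Λ v, Algebra.subset_adjoin hv⟩⟩ : Algebra.adjoin V S) =
        algebraMap V (Algebra.adjoin V S) v := Subtype.ext rfl
    rw [h1, AlgHom.commutes]
  · rw [hs]
    exact hgh _

theorem appr {F R' : Type u} [Field F] [CommRing R'] [IsNoetherianRing R'] [Algebra F[X] R']
    (hreg : CAlg.IsRegularHom F[X] R') :
    Assemble.Appr R' (algebraMap F[X] R' Polynomial.X) F := by
  intro S hS
  obtain ⟨D, _, _, hD, g, h, hgh⟩ := exists_smooth hreg S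
  have hN : IsNoetherianRing D := Algebra.FiniteType.isNoetherianRing F[X] D
  have hmax : (Ideal.span {(Polynomial.X : F[X])}).IsMaximal :=
    PrincipalIdealRing.isMaximal_of_irreducible Polynomial.irreducible_X
  have hr := isRegularRing_quotient (A := D) _ hmax
  have hnz : algebraMap F[X] D Polynomial.X ∈ nonZeroDivisors D :=
    mem_nonZeroDivisors (mem_nonZeroDivisors_of_ne_zero Polynomial.X_ne_zero)
  obtain ⟨alg, hft⟩ := exists_finiteType (F := F) (V := F[X]) (Ideal.span {algebraMap F[X] D Polynomial.X})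
  obtain ⟨s, hs1, hs2⟩ := exists_hom (S : Set R') g h hgh Polynomial.X hS
  exact ⟨D, inferInstance, hN, algebraMap F[X] D Polynomial.X, hnz, hr, alg, hft, h, s, hs1, hs2⟩

end Groth.Agent.Sga7.H330.EqChar
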