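import Groth.Agent.Sga7.H330.Assemble
import Groth.Agent.S0549
import Mathlib.RingTheory.AdicCompletion.LocalRing
import Mathlib.RingTheory.AdicCompletion.Completeness

/-!
# Approximation of a discrete valuation ring through its completion
-/

set_option autoImplicit false
universe u

open IsLocalRing

namespace Groth.Agent.Sga7.H330.FromCpl

/-- The conclusion of the approximation theorem. -/
def Concl (R K : Type u) [CommRing R] [IsDomain R] [IsDiscreteValuationRing R] [Field K] [Algebra R K]
    (ℓ : ℕ) (A : Type u) [CommRing A] (φ : A →+* K) : Prop :=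
    ∃ (R' : Type u) (_ : CommRing R') (_ : IsDomain R') (_ : IsDiscreteValuationRing R')
      (K' : Type u) (_ : Field K') (_ : Algebra R' K') (_ : IsFractionRing R' K')
      (j : R →+* R') (jK : K →+* K')
      (C : Type u) (_ : CommRing C) (_ : IsRegularLocalRing C) (_ : IsDomain C) (π : C)
      (_ : (Ideal.span {π}).IsPrime) (g : C →+* R')
      (ψ : A →+* Localization.Away π) (χ : Localization.Away π →+* K'),
      IsLocalHom j ∧ (maximalIdeal R).map j = maximalIdeal R' ∧
      jK.comp (algebraMap R K) = (algebraMap R' K').comp j ∧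
      π ∈ maximalIdeal C ∧ π ∉ maximalIdeal C ^ 2 ∧
      IsLocalHom g ∧ Irreducible (g π) ∧
      χ.comp (algebraMap C (Localization.Away π)) = (algebraMap R' K').comp g ∧
      χ.comp ψ = jK.comp φ ∧
      ∀ (k' : Type u) [Field k'] [Algebra (ResidueField (Localization.AtPrime (Ideal.span {π}))) k'],
        FiniteDimensional (ResidueField (Localization.AtPrime (Ideal.span {π}))) k' →
          ∃ m : ℕ, ∀ ζ : k', ¬ IsPrimitiveRoot ζ (ℓ ^ m)

section

variable (R K : Type u) [CommRing R] [IsDomain R] [IsDiscreteValuationRing R] [Field K] [Algebra R K]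
  [IsFractionRing R K]

/-- From an extension of discrete valuation rings of ramification index one. -/
theorem of_ext (R' : Type u) [CommRing R'] [IsDomain R'] [IsDiscreteValuationRing R'] (j : R →+* R')
    [IsLocalHom j] (hj : (maximalIdeal R).map j = maximalIdeal R') (t : R')
    (ht : Irreducible t) (F : Type u) [Field F] (ℓ : ℕ) (hF : ResRoots.FewRoots F ℓ)
    (hR' : Assemble.Appr R' t F) (K' : Type u) [Field K'] [Algebra R' K'] [IsFractionRing R' K']
    (A : Type u) [CommRing A] (hA : Algebra.FiniteType ℤ A) (φ : A →+* K) :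
    Concl R K ℓ A φ := by
  have hinj : Function.Injective j := by
    rw [injective_iff_map_eq_zero]
    intro x hx
    by_contra hx0
    obtain ⟨p, hp⟩ := IsDiscreteValuationRing.exists_irreducible R
    obtain ⟨n, u, hu⟩ := IsDiscreteValuationRing.eq_unit_mul_pow_irreducible hx0 hp
    rw [hu, map_mul, map_pow] at hx
    have h1 : j p = 0 := by
      rcases mul_eq_zero.1 hx with h | h
      · exact absurd h (u.isUnit.map j).ne_zero
      · exact eq_zero_of_pow_eq_zero h
    rw [hp.maximalIdeal_eq, Ideal.map_span, Set.image_singleton, h1, Ideal.span_singleton_eq_bot.2 rfl] at hj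
    exact IsDiscreteValuationRing.not_a_field R' hj.symm
  have hu : ∀ y : nonZeroDivisors R, IsUnit (((algebraMap R' K').comp j) y) := fun y => by
    rw [isUnit_iff_ne_zero, RingHom.comp_apply]
    intro h
    have h1 : j y = 0 := IsFractionRing.injective R' K' (h.trans (map_zero _).symm)
    exact nonZeroDivisors.ne_zero y.2 (hinj (h1.trans (map_zero _).symm))
  let jK : K →+* K' := IsLocalization.lift (M := nonZeroDivisors R) hu
  have hjK : jK.comp (algebraMap R K) = (algebraMap R' K').comp j := by
    ext x
    exact IsLocalization.lift_eq hu x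
  obtain ⟨C, i1, i2, i3, π, i4, g, ψ, χ, h1, h2, h3, h4, h5, h6, h7⟩ :=
    Assemble.main (K' := K') ht F ℓ hF hR' A hA (jK.comp φ)
  exact ⟨R', inferInstance, inferInstance, inferInstance, K', inferInstance, inferInstance, inferInstance,
    j, jK, C, i1, i2, i3, π, i4, g, ψ, χ, inferInstance, hj, hjK, h1, h2, h3, h4, h5, h6, h7⟩

/-- From the completion. -/
theorem of_completion (R' : Type u) [CommRing R'] [IsDomain R'] [IsDiscreteValuationRing R']
    (e : AdicCompletion (maximalIdeal R) R ≃+* R') (t : R') (ht : Irreducible t)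
    (F : Type u) [Field F] (ℓ : ℕ) (hF : ResRoots.FewRoots F ℓ)
    (hR' : Assemble.Appr R' t F) (A : Type u) [CommRing A] (hA : Algebra.FiniteType ℤ A) (φ : A →+* K) :
    Concl R K ℓ A φ := by
  let j : R →+* R' := (e : AdicCompletion (maximalIdeal R) R →+* R').comp (algebraMap R _)
  have hloc : IsLocalHom (algebraMap R (AdicCompletion (maximalIdeal R) R)) := inferInstance
  have hj : IsLocalHom j := RingHom.isLocalHom_comp _ _
  have hmap : (maximalIdeal R).map j = maximalIdeal R' := by
    rw [← Ideal.map_map, ← AdicCompletion.maximalIdeal_eq_map]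
    exact IsLocalRing.map_ringEquiv_maximalIdeal e
  exact of_ext R K R' j hmap t ht F ℓ hF hR' (FractionRing R') A hA φ

end

end Groth.Agent.Sga7.H330.FromCpl
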