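import Groth.Agent.Sga7.H330.EqChar
import Groth.Agent.Sga7.H330.EisPoly
import Groth.Agent.Sga7.H330.Ram

/-!
# Approximation of a complete discrete valuation ring of mixed characteristic
-/

set_option autoImplicit false
set_option linter.unusedSectionVars false
universe u

open IsLocalRing Polynomial

namespace Groth.Agent.Sga7.H330.MixAppr

open EisPoly

section

variable {Λ R' : Type u} [CommRing Λ] [IsDomain Λ] [IsDiscreteValuationRing Λ] [CommRing R'] [IsDomain R']
  [IsDiscreteValuationRing R'] [Algebra Λ R'] [IsLocalHom (algebraMap Λ R')]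
  {p : Λ} (hp : Irreducible p) {t : R'} (ht : Irreducible t) {e : ℕ} {w : R'} (hw : IsUnit w)
  (hpt : algebraMap Λ R' p = w * t ^ e)

include hp ht hw hpt

theorem exists_b [IsAdicComplete (maximalIdeal Λ) Λ]
    (hres : ∀ r : R', ∃ l : Λ, r - algebraMap Λ R' l ∈ maximalIdeal R') :
    ∃ b : Fin e → Λ, IsUnit (b ⟨0, Ram.e_pos hp ht hw hpt⟩) ∧
      t ^ e = algebraMap Λ R' p * ∑ j, algebraMap Λ R' (b j) * t ^ (j : ℕ) := by
  obtain ⟨w', hw'⟩ := hw.exists_right_inv
  obtain ⟨b, hb⟩ := Ram.surjective hp ht hw hpt hres w'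
  have he := Ram.e_pos hp ht hw hpt
  refine ⟨b, ?_, ?_⟩
  · have h1 : IsUnit w' := IsUnit.of_mul_eq_one w (by rw [mul_comm]; exact hw')
    have h2 : t ∣ w' - algebraMap Λ R' (b ⟨0, he⟩) := by
      classical
      rw [hb, ← Finset.add_sum_erase Finset.univ _ (Finset.mem_univ (⟨0, he⟩ : Fin e))]
      simp only [pow_zero, mul_one, add_sub_cancel_left]
      refine Finset.dvd_sum fun j hj => Dvd.dvd.mul_left (dvd_pow_self t ?_) _
      intro h
      exact (Finset.mem_erase.1 hj).1 (Fin.ext h)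
    refine isUnit_of_map_unit (algebraMap Λ R') _ ?_
    by_contra h3
    have h4 : t ∣ algebraMap Λ R' (b ⟨0, he⟩) := by
      rw [← Ideal.mem_span_singleton, ← ht.maximalIdeal_eq]
      exact h3
    have h5 : t ∣ w' := by
      have := dvd_add h2 h4
      rwa [sub_add_cancel] at this
    exact ht.not_isUnit (isUnit_of_dvd_unit h5 h1)
  · rw [← hb, hpt]
    linear_combination (-(t ^ e)) * hw'

theorem appr [IsAdicComplete (maximalIdeal Λ) Λ]
    (hres : ∀ r : R', ∃ l : Λ, r - algebraMap Λ R' l ∈ maximalIdeal R')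
    {V : Type u} [CommRing V] [IsNoetherianRing V] [Algebra V Λ] (hreg : CAlg.IsRegularHom V Λ)
    (ϖ : V) (hϖ : algebraMap V Λ ϖ = p) (hϖ0 : ϖ ∈ nonZeroDivisors V) (hmax : (Ideal.span {ϖ}).IsMaximal)
    (F : Type u) [Field F] (f : F →+* V ⧸ Ideal.span {ϖ}) (hf : Function.Surjective f) :
    Assemble.Appr R' t F := by
  classical
  intro S hS
  have he := Ram.e_pos hp ht hw hpt
  obtain ⟨b, hb0, hbt⟩ := exists_b hp ht hw hpt hres
  obtain ⟨b0', hb0'⟩ := hb0.exists_right_inv
  choose c hc using Ram.surjective hp ht hw hpt hres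
  let S' : Finset Λ := insert b0' (Finset.univ.image b ∪
    (S ×ˢ (Finset.univ : Finset (Fin e))).image (fun x => c x.1 x.2))
  obtain ⟨D, _, _, hD, g, h, hgh⟩ := EqChar.exists_smooth hreg S'
  have hmemb : ∀ j, b j ∈ Algebra.adjoin V (S' : Set Λ) := fun j => Algebra.subset_adjoin (by
    simp only [S', Finset.coe_insert, Finset.coe_union, Finset.coe_image]
    exact Set.mem_insert_of_mem _ (Or.inl ⟨j, by simp, rfl⟩))
  have hmemc : ∀ s ∈ S, ∀ j, c s j ∈ Algebra.adjoin V (S' : Set Λ) := fun s hs j =>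
    Algebra.subset_adjoin (by
      simp only [S', Finset.coe_insert, Finset.coe_union, Finset.coe_image]
      exact Set.mem_insert_of_mem _ (Or.inr ⟨(s, j), by simpa using hs, rfl⟩))
  have hmem0 : b0' ∈ Algebra.adjoin V (S' : Set Λ) := Algebra.subset_adjoin (by
    simp only [S', Finset.coe_insert]
    exact Set.mem_insert _ _)
  -- the ring over `A''`
  let A2 := Algebra.adjoin V (S' : Set Λ)
  let b2 : Fin e → A2 := fun j => ⟨b j, hmemb j⟩
  let p2 : A2 := algebraMap V A2 ϖ
  have hp2 : (p2 : Λ) = p := hϖ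
  let bD : Fin e → D := fun j => g (b2 j)
  let pD : D := algebraMap V D ϖ
  have hgp : g p2 = pD := g.commutes ϖ
  have hhp : h pD = p := (h.commutes ϖ).trans hϖ
  have hhb : ∀ j, h (bD j) = b j := fun j => hgh (b2 j)
  let κ : AdjoinRoot (eis p2 b2) →+* R' :=
    AdjoinRoot.lift ((algebraMap Λ R').comp (A2.val : A2 →+* Λ)) t (by
      rw [eval₂_eis]
      change t ^ e - algebraMap Λ R' (p2 : Λ) * ∑ j, algebraMap Λ R' (b j) * t ^ (j : ℕ) = 0
      rw [hp2, hbt, sub_self])
  have hκof : ∀ a : A2, κ (AdjoinRoot.of _ a) = algebraMap Λ R' (a : Λ) := fun a => AdjoinRoot.lift_of _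
  have hκroot : κ (AdjoinRoot.root _) = t := AdjoinRoot.lift_root _
  have hκinj : Function.Injective κ := by
    rw [injective_iff_map_eq_zero]
    intro z hz
    obtain ⟨a, ha⟩ := exists_coeffs p2 b2 z
    rw [ha, map_sum] at hz
    have h1 : ∑ j, algebraMap Λ R' (a j : Λ) * t ^ (j : ℕ) = 0 := by
      rw [← hz]
      refine Finset.sum_congr rfl fun j _ => ?_
      rw [map_mul, map_pow, hκof, hκroot]
    have h2 := Ram.injective hp ht hw hpt (fun j => (a j : Λ)) h1
    have h3 : ∀ j, a j = 0 := fun j => Subtype.ext (congrFun h2 j)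
    rw [ha]
    exact Finset.sum_eq_zero fun j _ => by rw [h3, map_zero, zero_mul]
  let B := AdjoinRoot (eis pD bD)
  let θ : AdjoinRoot (eis p2 b2) →+* B :=
    AdjoinRoot.lift ((AdjoinRoot.of (eis pD bD)).comp (g : A2 →+* D)) (AdjoinRoot.root _) (by
      rw [eval₂_eis]
      have h1 := AdjoinRoot.eval₂_root (eis pD bD)
      rw [eval₂_eis] at h1
      change AdjoinRoot.root (eis pD bD) ^ e - AdjoinRoot.of (eis pD bD) (g p2) *
        ∑ j, AdjoinRoot.of (eis pD bD) (bD j) * AdjoinRoot.root (eis pD bD) ^ (j : ℕ) = 0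
      rw [hgp]
      exact h1)
  have hθof : ∀ a : A2, θ (AdjoinRoot.of _ a) = AdjoinRoot.of _ (g a) := fun a => AdjoinRoot.lift_of _
  have hθroot : θ (AdjoinRoot.root _) = AdjoinRoot.root _ := AdjoinRoot.lift_root _
  let hB : B →+* R' :=
    AdjoinRoot.lift ((algebraMap Λ R').comp (h : D →+* Λ)) t (by
      rw [eval₂_eis]
      change t ^ e - algebraMap Λ R' (h pD) * ∑ j, algebraMap Λ R' (h (bD j)) * t ^ (j : ℕ) = 0
      rw [hhp]
      simp only [hhb]
      rw [hbt, sub_self])
  have hBof : ∀ d : D, hB (AdjoinRoot.of _ d) = algebraMap Λ R' (h d) := fun d => AdjoinRoot.lift_of _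
  have hBroot : hB (AdjoinRoot.root _) = t := AdjoinRoot.lift_root _
  have hBθ : ∀ z, hB (θ z) = κ z := by
    intro z
    obtain ⟨P, rfl⟩ := AdjoinRoot.mk_surjective z
    induction P using Polynomial.induction_on' with
    | add P Q hP hQ => rw [map_add, map_add, map_add, map_add, hP, hQ]
    | monomial n a =>
      rw [← C_mul_X_pow_eq_monomial, map_mul, map_pow, AdjoinRoot.mk_C, AdjoinRoot.mk_X]
      simp only [map_mul, map_pow, hθof, hθroot, hBof, hBroot, hκof, hκroot]
      rw [hgh]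
  -- the subring generated by `S`
  have hle : ∀ x ∈ Algebra.adjoin ℤ (S : Set R'), x ∈ κ.range := by
    have h1 : Algebra.adjoin ℤ (S : Set R') ≤ (subalgebraOfSubring κ.range) := by
      refine Algebra.adjoin_le fun s hs => ?_
      refine ⟨∑ j : Fin e, AdjoinRoot.of _ ⟨c s j, hmemc s hs j⟩ * AdjoinRoot.root _ ^ (j : ℕ), ?_⟩
      rw [map_sum]
      conv_rhs => rw [hc s]
      refine Finset.sum_congr rfl fun j _ => ?_
      rw [map_mul, map_pow, hκof, hκroot]
    exact fun x hx => h1 hx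
  have hbij : Function.Bijective κ.rangeRestrict :=
    ⟨fun x y hxy => hκinj (congrArg Subtype.val hxy), κ.rangeRestrict_surjective⟩
  let E : AdjoinRoot (eis p2 b2) ≃+* κ.range := RingEquiv.ofBijective κ.rangeRestrict hbij
  have hE : ∀ z, ((E z : κ.range) : R') = κ z := fun z => rfl
  let s : Algebra.adjoin ℤ (S : Set R') →+* B := θ.comp ((E.symm : κ.range →+* _).comp
    ((Algebra.adjoin ℤ (S : Set R')).toSubring.subtype.codRestrict κ.range (fun x => hle x x.2)))
  have hs : ∀ x, s x = θ (E.symm ⟨x, hle x x.2⟩) := fun x => rfl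
  -- the quotient
  have hDft : Algebra.FiniteType V D := inferInstance
  have hDN : IsNoetherianRing D := Algebra.FiniteType.isNoetherianRing V D
  have hBN : IsNoetherianRing B := inferInstanceAs (IsNoetherianRing (AdjoinRoot (eis pD bD)))
  have hbDu : IsUnit (bD ⟨0, he⟩) := by
    refine IsUnit.of_mul_eq_one (g ⟨b0', hmem0⟩) ?_
    rw [← map_mul, ← map_one g]
    congr 1
    exact Subtype.ext hb0'
  have hpDnz : pD ∈ nonZeroDivisors D := EqChar.mem_nonZeroDivisors hϖ0
  have hroot : AdjoinRoot.root (eis pD bD) ∈ nonZeroDivisors B :=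
    root_mem_nonZeroDivisors pD bD he hpDnz hbDu
  obtain ⟨q, hq⟩ := exists_quotient_equiv pD bD he hbDu
  have hregD : IsRegularRing (D ⧸ Ideal.span {pD}) := EqChar.isRegularRing_quotient ϖ hmax
  have hregB : IsRegularRing (B ⧸ Ideal.span {AdjoinRoot.root (eis pD bD)}) :=
    IsRegularRing.of_ringEquiv q.symm
  have hft : ∃ _ : Algebra F (B ⧸ Ideal.span {AdjoinRoot.root (eis pD bD)}),
      Algebra.FiniteType F (B ⧸ Ideal.span {AdjoinRoot.root (eis pD bD)}) := by
    let i1 : V ⧸ Ideal.span {ϖ} →+* D ⧸ Ideal.span {pD} :=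
      Ideal.quotientMap _ (algebraMap V D) (by
        rw [Ideal.span_le, Set.singleton_subset_iff]
        exact Ideal.mem_span_singleton_self _)
    let i2 : F →+* B ⧸ Ideal.span {AdjoinRoot.root (eis pD bD)} :=
      q.symm.toRingHom.comp (i1.comp f)
    have hft0 : (i2 : F →+* _).FiniteType := by
      have h1 : i1.FiniteType := by
        have h2 : (i1.comp (Ideal.Quotient.mk (Ideal.span {ϖ}))).FiniteType := by
          have h3 : i1.comp (Ideal.Quotient.mk (Ideal.span {ϖ})) =
              (Ideal.Quotient.mk (Ideal.span {pD})).comp (algebraMap V D) := by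
            ext v
            rfl
          rw [h3]
          exact RingHom.FiniteType.comp (RingHom.FiniteType.of_surjective (Ideal.Quotient.mk (Ideal.span {pD}))
            Ideal.Quotient.mk_surjective) ((RingHom.finiteType_algebraMap).2 hDft)
        exact RingHom.FiniteType.of_comp_finiteType h2
      exact (RingHom.FiniteType.of_surjective q.symm.toRingHom q.symm.surjective).comp
        (h1.comp (RingHom.FiniteType.of_surjective f hf))
    exact ⟨i2.toAlgebra, hft0⟩
  obtain ⟨alg, hft⟩ := hft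
  refine ⟨B, inferInstance, hBN, AdjoinRoot.root (eis pD bD), hroot, hregB, alg, hft, hB, s, ?_, ?_⟩
  · rw [hs, ← hθroot]
    congr 1
    rw [RingEquiv.symm_apply_eq]
    apply Subtype.ext
    rw [hE, hκroot]
  · intro x
    rw [hs, hBθ, ← hE, RingEquiv.apply_symm_apply]

end

end Groth.Agent.Sga7.H330.MixAppr
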